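import Groth.Agent.Dual.H329.GorBase
import Groth.Agent.Ega43.DvrScheme
import Groth.Agent.CycB.LocQuot
import Groth.Agent.LoccohB.GorBasic

/-!
# The Gorenstein locus of a flat morphism is stable under generization (Noetherian base)

* `gorFib_iff_of_isPullback_lft`: `GorFib` is invariant under arbitrary base change for `f` locally of
  finite type.
* `gor_stalk_of_specializes`: Gorenstein local rings are stable under generization.
* `gorFib_of_specializes`: `f : X ⟶ Y` flat, locally of finite type, `Y` locally Noetherian, `x' ⤳ x`;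
  if the fibre is Gorenstein at `x` then so it is at `x'`.
-/

set_option autoImplicit false

universe u

open CategoryTheory Limits AlgebraicGeometry IsLocalRing
open Groth.Agent.Flat2D.PbStalk Groth.Agent.Flat2D.FlatAtPt Groth.Agent.Flat2D.CMBase
open Groth.Agent.LoccohA.GorBC Groth.Agent.Dual.H329.GorBase

namespace Groth.Agent.Dual.H321.GorGen

/-- Arbitrary base change, for `f` locally of finite type. -/
theorem gorFib_iff_of_isPullback_lft {X Y X' Y' : Scheme.{u}} {f : X ⟶ Y} {f' : X' ⟶ Y'}
    {g' : X' ⟶ X} {g : Y' ⟶ Y} (hc : IsPullback g' f' f g) [LocallyOfFiniteType f] (x' : X') :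
    GorFib f' x' ↔ GorFib f (g' x') := by
  have hf' : LocallyOfFiniteType f' :=
    MorphismProperty.of_isPullback (P := @LocallyOfFiniteType) hc inferInstance
  have h1 : LocallyOfFiniteType (f.fiberToSpecResidueField (g (f' x'))) :=
    MorphismProperty.pullback_snd _ _ inferInstance
  have h2 : LocallyOfFiniteType (f'.fiberToSpecResidueField (f' x')) :=
    MorphismProperty.pullback_snd _ _ inferInstance
  have h3 : IsLocallyNoetherian (f.fiber (g (f' x'))) :=
    LocallyOfFiniteType.isLocallyNoetherian (f.fiberToSpecResidueField (g (f' x')))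
  have h4 : IsLocallyNoetherian (f'.fiber (f' x')) :=
    LocallyOfFiniteType.isLocallyNoetherian (f'.fiberToSpecResidueField (f' x'))
  exact gorFib_iff_of_baseChange hc x' (Or.inr
    (Groth.Agent.Flat2D.EssRes.essFiniteType_of_SpecMap_eq _ _ _ (SpecMap_resMap _ _)))

/-- Gorenstein local rings are stable under generization. -/
theorem gor_stalk_of_specializes {X : Scheme.{u}} {x' x : X} (hs : x' ⤳ x)
    (h : LocCoh.IsGorensteinLocalRing (X.presheaf.stalk x)) :
    LocCoh.IsGorensteinLocalRing (X.presheaf.stalk x') := by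
  have h1 := LoccohB.GorBasic.isGorensteinRing_of_isGorensteinLocalRing h
  let := (X.presheaf.stalkSpecializes hs).hom.toAlgebra
  have h2 : IsLocalization.AtPrime (X.presheaf.stalk x') (RingHom.ker (Cyc.specMap x x' hs)) :=
    CycB.LocQuot.isLocalization_stalkSpecializes hs
  have h3 := h1.isGorensteinLocalRing_localization (RingHom.ker (Cyc.specMap x x' hs))
  exact isGorensteinLocalRing_of_ringEquiv
    (IsLocalization.algEquiv (RingHom.ker (Cyc.specMap x x' hs)).primeCompl
      (Localization.AtPrime (RingHom.ker (Cyc.specMap x x' hs))) (X.presheaf.stalk x')).toRingEquiv h3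

/-- **Stability under generization.** -/
theorem gorFib_of_specializes {X Y : Scheme.{u}} (f : X ⟶ Y) [Flat f]
    [LocallyOfFiniteType f] [IsLocallyNoetherian Y] {x' x : X} (hs : x' ⤳ x)
    (h : GorFib f x) : GorFib f x' := by
  by_cases hne : x' = x
  · rw [hne]; exact h
  have hX : IsLocallyNoetherian X := LocallyOfFiniteType.isLocallyNoetherian f
  obtain ⟨R, _, _, _, _, _, g, hg1, hg2⟩ := Ega43.DvrScheme.exists_dvr_of_specializes hs hne
    (X.residueField x') (𝟙 _) (RingHom.FiniteType.essFiniteType (RingHom.FiniteType.id _))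
  let L := X.residueField x'
  let η : ↥(Spec (CommRingCat.of L)) := closedPoint L
  let gen : ↥(Spec (CommRingCat.of R)) := (⊥ : PrimeSpectrum R)
  let cl : ↥(Spec (CommRingCat.of R)) := closedPoint R
  have hgen : (Spec.map (CommRingCat.ofHom (algebraMap R L))).base η = gen := by
    refine PrimeSpectrum.ext (R := R) ?_
    change Ideal.comap (algebraMap R L) (maximalIdeal L) = ⊥
    rw [IsLocalRing.maximalIdeal_eq_bot]
    exact (RingHom.injective_iff_ker_eq_bot _).1 (IsFractionRing.injective R L)
  have hg3 : g.base gen = x' := by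
    rw [← hgen, ← Scheme.Hom.comp_apply, hg2, Scheme.Hom.comp_apply]
    exact Scheme.fromSpecResidueField_apply _ _
  have hg1' : g.base cl = x := hg1
  let XR := pullback f (g ≫ f)
  let a : XR ⟶ X := pullback.fst f (g ≫ f)
  let fR : XR ⟶ Spec (CommRingCat.of R) := pullback.snd f (g ≫ f)
  have hpb : IsPullback a fR f (g ≫ f) := IsPullback.of_hasPullback _ _
  let σ : Spec (CommRingCat.of R) ⟶ XR := pullback.lift g (𝟙 _) (by rw [Category.id_comp])
  have hσa : σ ≫ a = g := pullback.lift_fst _ _ _
  have hσf : σ ≫ fR = 𝟙 _ := pullback.lift_snd _ _ _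
  have hfl : Flat fR := MorphismProperty.of_isPullback (P := @Flat) hpb inferInstance
  have hft : LocallyOfFiniteType fR :=
    MorphismProperty.of_isPullback (P := @LocallyOfFiniteType) hpb inferInstance
  have hXR : IsLocallyNoetherian XR := LocallyOfFiniteType.isLocallyNoetherian fR
  have hspec : gen ⤳ cl :=
    (PrimeSpectrum.le_iff_specializes (R := R) ⊥ (closedPoint R)).1 bot_le
  have e1 : a.base (σ.base cl) = x := by
    rw [← Scheme.Hom.comp_apply, hσa]; exact hg1'
  have e2 : a.base (σ.base gen) = x' := by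
    rw [← Scheme.Hom.comp_apply, hσa]; exact hg3
  have h2 : GorFib fR (σ.base cl) :=
    (gorFib_iff_of_isPullback_lft hpb _).2 (by rw [e1]; exact h)
  have hRG : LocCoh.IsGorensteinRing R := isGorensteinRing_of_isPrincipalIdealRing R
  have hbase : ∀ z : ↥(Spec (CommRingCat.of R)),
      LocCoh.IsGorensteinLocalRing ((Spec (CommRingCat.of R)).presheaf.stalk z) :=
    fun z => gor_stalk_Spec (R := CommRingCat.of R) hRG z
  have hSN : IsLocallyNoetherian (Spec (CommRingCat.of R)) := inferInstance
  have h3 : LocCoh.IsGorensteinLocalRing (XR.presheaf.stalk (σ.base cl)) :=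
    (gor_iff_of_flat fR (σ.base cl) (Flat.stalkMap fR _)).2 ⟨hbase _, h2⟩
  have h4 : LocCoh.IsGorensteinLocalRing (XR.presheaf.stalk (σ.base gen)) :=
    gor_stalk_of_specializes (hspec.map σ.continuous) h3
  have h5 : GorFib fR (σ.base gen) :=
    ((gor_iff_of_flat fR (σ.base gen) (Flat.stalkMap fR _)).1 h4).2
  have h6 := (gorFib_iff_of_isPullback_lft hpb (σ.base gen)).1 h5
  rw [e2] at h6
  exact h6

end Groth.Agent.Dual.H321.GorGen
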