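import Groth.Agent.S0373
import Groth.Agent.S0377
import Groth.Agent.S0345
import Groth.Agent.Localalg.DGor
import Groth.Agent.LoccohA.GorBC
import Mathlib.RingTheory.KrullDimension.PID
import Mathlib.RingTheory.EssentialFiniteness

/-!
# Openness of the Gorenstein locus for rings of finite type over `ℤ`

* `exists_isDualizing`: an algebra of finite type over `ℤ` has a dualizing complex.
* `isOpen_gorensteinLocus`: its Gorenstein locus is open.
-/

set_option autoImplicit false

universe u

open CategoryTheory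

namespace Groth.Agent.Dual.H321.GorOpenZ

instance isDomain_ulift_int : IsDomain (ULift.{u} ℤ) :=
  (ULift.ringEquiv.{0, u} (R := ℤ)).isDomain

instance isPrincipalIdealRing_ulift_int : IsPrincipalIdealRing (ULift.{u} ℤ) :=
  IsPrincipalIdealRing.of_surjective (ULift.ringEquiv.{0, u} (R := ℤ)).symm.toRingHom
    (ULift.ringEquiv (R := ℤ)).symm.surjective

theorem exists_isDualizing_int : ∃ ω : Dual.D (ULift.{u} ℤ), Dual.IsDualizing (ULift.{u} ℤ) ω := by
  have h1 : LocCoh.IsGorensteinRing (ULift.{u} ℤ) :=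
    LoccohA.GorBC.isGorensteinRing_of_isPrincipalIdealRing _
  have h2 : ringKrullDim (ULift.{u} ℤ) < ⊤ := by
    have h3 : ringKrullDim (ULift.{u} ℤ) ≤ 1 := by
      rw [ringKrullDim_eq_of_ringEquiv (ULift.ringEquiv.{0, u} (R := ℤ))]
      exact Ring.krullDimLE_iff.mp inferInstance
    exact lt_of_le_of_lt h3 (by decide)
  obtain ⟨n, hn⟩ := (Groth.Agent.S0345.result (ULift.{u} ℤ)).2 ⟨h1, h2⟩
  exact ⟨_, Localalg.DGor.isDualizing_self (ULift.{u} ℤ) n hn⟩

/-- An algebra of finite type over `ℤ` has a dualizing complex. -/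
theorem exists_isDualizing (B : Type u) [CommRing B] [Algebra.FiniteType ℤ B] :
    ∃ ω : Dual.D B, Dual.IsDualizing B ω := by
  obtain ⟨ω, hω⟩ := exists_isDualizing_int.{u}
  let : Algebra (ULift.{u} ℤ) B :=
    ((algebraMap ℤ B).comp (ULift.ringEquiv.{0, u} (R := ℤ)).toRingHom).toAlgebra
  have h1 : (((algebraMap ℤ B).comp (ULift.ringEquiv.{0, u} (R := ℤ)).toRingHom).comp
      (ULift.ringEquiv.{0, u} (R := ℤ)).symm.toRingHom).FiniteType := by
    rw [RingHom.ext_int (((algebraMap ℤ B).comp (ULift.ringEquiv.{0, u} (R := ℤ)).toRingHom).comp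
      (ULift.ringEquiv.{0, u} (R := ℤ)).symm.toRingHom) (algebraMap ℤ B)]
    exact RingHom.finiteType_algebraMap.2 inferInstance
  have h2 : Algebra.FiniteType (ULift.{u} ℤ) B := RingHom.FiniteType.of_comp_finiteType h1
  exact Groth.Agent.S0377.result (ULift.{u} ℤ) ω hω B

/-- The Gorenstein locus of a ring of finite type over `ℤ` is open. -/
theorem isOpen_gorensteinLocus (B : Type u) [CommRing B] [Algebra.FiniteType ℤ B] :
    IsOpen {p : PrimeSpectrum B | LocCoh.IsGorensteinLocalRing (Localization.AtPrime p.asIdeal)} := by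
  have hN : IsNoetherianRing B := Algebra.FiniteType.isNoetherianRing ℤ B
  obtain ⟨ω, hω⟩ := exists_isDualizing B
  exact Groth.Agent.S0373.result B ω hω

end Groth.Agent.Dual.H321.GorOpenZ
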