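import Groth.Agent.Dual.H321.GorGen
import Groth.Agent.Dual.H321.GorOpenZ
import Groth.Agent.FlatA.NagataOpen
import Groth.Agent.Etbase.FPModel
import Mathlib.AlgebraicGeometry.Morphisms.FinitePresentation
import Mathlib.AlgebraicGeometry.Morphisms.Flat

/-!
# Openness of the Gorenstein locus of a flat morphism locally of finite presentation

* `isOpen_gorFib_of_int`: `A` of finite type over `ℤ`, `B` flat and of finite type over `A`.
* `isOpen_gorFib_Spec`: `B` flat and of finite presentation over an arbitrary ring `A`.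
* `isOpen_gorFib`: the case of schemes.
* `isOpen_isGorensteinAt`.
-/

set_option autoImplicit false

universe u

open CategoryTheory Limits AlgebraicGeometry IsLocalRing TensorProduct
open Groth.Agent.Flat2D.PbStalk Groth.Agent.Flat2D.FlatAtPt Groth.Agent.Flat2D.CMBase
open Groth.Agent.LoccohA.GorBC Groth.Agent.Dual.H329.GorBase Groth.Agent.Dual.H321.GorGen

namespace Groth.Agent.Dual.H321.GorOpen

/-- `GorFib` is local on the source. -/
theorem gorFib_comp_openImmersion {U X Y : Scheme.{u}} (i : U ⟶ X) [IsOpenImmersion i] (f : X ⟶ Y)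
    (u : U) : GorFib (i ≫ f) u ↔ GorFib f (i u) := by
  let σ : X.presheaf.stalk (i u) ≃+* U.presheaf.stalk u :=
    (asIso (i.stalkMap u)).commRingCatIsoToRingEquiv
  have hI : fiberIdeal (i ≫ f) u = (fiberIdeal f (i u)).map (σ : X.presheaf.stalk (i u) →+* _) := by
    rw [Ideal.map_map]
    have h1 : ((i ≫ f).stalkMap u).hom = (i.stalkMap u).hom.comp (f.stalkMap (i u)).hom := by
      rw [Scheme.Hom.stalkMap_comp]
      rfl
    exact congrArg (fun φ => (maximalIdeal (Y.presheaf.stalk (f (i u)))).map φ) h1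
  exact (isGorensteinLocalRing_iff_of_ringEquiv (Ideal.quotientEquiv _ _ σ hI)).symm

/-- `GorFib` is local on the target. -/
theorem gorFib_comp_mono {X V Y : Scheme.{u}} (g : X ⟶ V) (j : V ⟶ Y) [Mono j]
    [LocallyOfFiniteType (g ≫ j)] (x : X) : GorFib (g ≫ j) x ↔ GorFib g x := by
  have h : IsPullback (𝟙 X) g (g ≫ j) j := by
    refine IsPullback.of_isLimit' ⟨by simp⟩ (PullbackCone.IsLimit.mk _ (fun s => s.fst) ?_ ?_ ?_)
    · intro s; exact Category.comp_id _
    · intro s
      rw [← cancel_mono j, Category.assoc]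
      exact s.condition
    · intro s m h1 _
      rw [← h1, Category.comp_id]
  exact (gorFib_iff_of_isPullback_lft h x).symm

/-- The locus is open over a base of finite type over `ℤ`. -/
theorem isOpen_gorFib_of_int (A B : Type u) [CommRing A] [CommRing B] [Algebra A B]
    [Algebra.FiniteType ℤ A] [Algebra.FiniteType A B] [Module.Flat A B] :
    IsOpen {q : ↥(Spec (CommRingCat.of B)) |
      GorFib (Spec.map (CommRingCat.ofHom (algebraMap A B))) q} := by
  have hNA : IsNoetherianRing A := Algebra.FiniteType.isNoetherianRing ℤ A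
  have hNB : IsNoetherianRing B := Algebra.FiniteType.isNoetherianRing A B
  have hZB : Algebra.FiniteType ℤ B := Algebra.FiniteType.trans (S := A) inferInstance inferInstance
  let f : Spec (CommRingCat.of B) ⟶ Spec (CommRingCat.of A) :=
    Spec.map (CommRingCat.ofHom (algebraMap A B))
  have hf1 : Flat f := by
    rw [Flat.SpecMap_iff]
    exact RingHom.flat_algebraMap_iff.2 inferInstance
  have hf2 : LocallyOfFiniteType f := by
    rw [HasRingHomProperty.Spec_iff (P := @LocallyOfFiniteType)]
    exact RingHom.finiteType_algebraMap.2 inferInstance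
  have hY : IsLocallyNoetherian (Spec (CommRingCat.of A)) := inferInstance
  have hX : IsLocallyNoetherian (Spec (CommRingCat.of B)) := inferInstance
  have hXN : TopologicalSpace.NoetherianSpace ↥(Spec (CommRingCat.of B)) :=
    inferInstanceAs (TopologicalSpace.NoetherianSpace (PrimeSpectrum B))
  refine FlatA.NagataOpen.isOpen_of_nagata _ ?_ ?_
  · intro x y hxy hy
    exact gorFib_of_specializes f hxy hy
  · intro x hx
    let p : Ideal A := (f x).asIdeal
    have hp : p.IsPrime := (f x).2
    let C := B ⊗[A] (A ⧸ p)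
    have hCZ : @Algebra.FiniteType ℤ C _ _ (Ring.toIntAlgebra C) := by
      have h1 : (algebraMap B C).FiniteType := RingHom.finiteType_algebraMap.2 inferInstance
      have h2 : (algebraMap ℤ B).FiniteType := RingHom.finiteType_algebraMap.2 hZB
      have h3 := h1.comp h2
      rw [RingHom.ext_int ((algebraMap B C).comp (algebraMap ℤ B)) (@algebraMap ℤ C _ _ (Ring.toIntAlgebra C))] at h3
      exact RingHom.finiteType_algebraMap.1 h3
    have hNC : IsNoetherianRing C := Algebra.FiniteType.isNoetherianRing B C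
    let g : Spec (CommRingCat.of (A ⧸ p)) ⟶ Spec (CommRingCat.of A) :=
      Spec.map (CommRingCat.ofHom (algebraMap A (A ⧸ p)))
    let g' : Spec (CommRingCat.of C) ⟶ Spec (CommRingCat.of B) :=
      Spec.map (CommRingCat.ofHom (algebraMap B C))
    let f' : Spec (CommRingCat.of C) ⟶ Spec (CommRingCat.of (A ⧸ p)) :=
      Spec.map (CommRingCat.ofHom
        (Algebra.TensorProduct.includeRight (R := A) (A := B) (B := A ⧸ p)).toRingHom)
    have hpb : IsPullback g' f' f g :=
      isPullback_SpecMap_of_isPushout _ _ _ _ (CommRingCat.isPushout_tensorProduct A B (A ⧸ p))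
    have hfl : Flat f' := MorphismProperty.of_isPullback (P := @Flat) hpb inferInstance
    have hC : IsLocallyNoetherian (Spec (CommRingCat.of C)) := inferInstance
    have hAp : IsLocallyNoetherian (Spec (CommRingCat.of (A ⧸ p))) := inferInstance
    have hstalk : ∀ z : PrimeSpectrum C, LocCoh.IsGorensteinLocalRing (Localization.AtPrime z.asIdeal) ↔
        LocCoh.IsGorensteinLocalRing ((Spec (CommRingCat.of C)).presheaf.stalk z) := fun z =>
      isGorensteinLocalRing_iff_of_ringEquiv
        (Spec.stalkIso (CommRingCat.of C) z).symm.commRingCatIsoToRingEquiv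
    have hopen := @GorOpenZ.isOpen_gorensteinLocus C _ hCZ
    have hind : Topology.IsInducing (PrimeSpectrum.comap (algebraMap B C)) :=
      (PrimeSpectrum.isClosedEmbedding_comap_of_surjective C (algebraMap B C)
        (Algebra.TensorProduct.includeLeft_surjective B B Ideal.Quotient.mk_surjective)).isInducing
    obtain ⟨V, hV, hmem⟩ : ∃ V : Set ↥(Spec (CommRingCat.of B)), IsOpen V ∧
        ∀ z : ↥(Spec (CommRingCat.of C)), g' z ∈ V ↔
          LocCoh.IsGorensteinLocalRing ((Spec (CommRingCat.of C)).presheaf.stalk z) := by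
      obtain ⟨V, hV, hVU⟩ := hind.isOpen_iff.1 hopen
      refine ⟨V, hV, fun z => ?_⟩
      exact (Set.ext_iff.1 hVU z).trans (hstalk z)
    refine ⟨V, hV, ?_, ?_⟩
    · -- the point `x`
      let η : PrimeSpectrum (A ⧸ p) := ⟨⊥, Ideal.isPrime_bot⟩
      have hη : f x = g η := by
        refine PrimeSpectrum.ext ?_
        change p = Ideal.comap (algebraMap A (A ⧸ p)) ⊥
        rw [← RingHom.ker_eq_comap_bot]
        exact (Ideal.mk_ker (I := p)).symm
      obtain ⟨z, hz1, hz2⟩ := Scheme.exists_preimage_of_isPullback hpb x η hη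
      rw [← hz1, hmem]
      have h1 : GorFib f' z := (gorFib_iff_of_isPullback_lft hpb z).2 (by rw [hz1]; exact hx)
      refine (gor_iff_of_flat f' z (Flat.stalkMap f' _)).2 ⟨?_, h1⟩
      rw [hz2]
      refine isGorensteinLocalRing_of_ringEquiv
        (Spec.stalkIso (CommRingCat.of (A ⧸ p)) η).symm.commRingCatIsoToRingEquiv ?_
      have hfrac : IsFractionRing (A ⧸ p) (Localization.AtPrime (⊥ : Ideal (A ⧸ p))) := by
        simpa [Ideal.primeCompl_bot] using
          Localization.isLocalization (M := (⊥ : Ideal (A ⧸ p)).primeCompl)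
      exact isGorensteinLocalRing_of_ringEquiv
        (IsLocalization.algEquiv (nonZeroDivisors (A ⧸ p)) (FractionRing (A ⧸ p))
          (Localization.AtPrime (⊥ : Ideal (A ⧸ p)))).toRingEquiv
        (isGorensteinLocalRing_of_field (FractionRing (A ⧸ p)))
    · intro y hy hxy
      have hle : p ≤ (f y).asIdeal :=
        (PrimeSpectrum.le_iff_specializes (f x) (f y)).2 (hxy.map f.continuous)
      obtain ⟨η, hη⟩ : ∃ η : PrimeSpectrum (A ⧸ p), f y = g η := by
        have : f y ∈ Set.range (PrimeSpectrum.comap (Ideal.Quotient.mk p)) := by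
          rw [range_comap_of_surjective _ _ Ideal.Quotient.mk_surjective, Ideal.mk_ker]
          exact hle
        obtain ⟨η, hη⟩ := this
        exact ⟨η, hη.symm⟩
      obtain ⟨z, hz1, hz2⟩ := Scheme.exists_preimage_of_isPullback hpb y η hη
      rw [← hz1, hmem] at hy
      have h1 := ((gor_iff_of_flat f' z (Flat.stalkMap f' _)).1 hy).2
      have h2 := (gorFib_iff_of_isPullback_lft hpb z).1 h1
      rw [hz1] at h2
      exact h2

/-- The locus is open for a flat algebra of finite presentation over any ring. -/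
theorem isOpen_gorFib_Spec (A B : Type u) [CommRing A] [CommRing B] [Algebra A B]
    [Algebra.FinitePresentation A B] [Module.Flat A B] :
    IsOpen {q : ↥(Spec (CommRingCat.of B)) |
      GorFib (Spec.map (CommRingCat.ofHom (algebraMap A B))) q} := by
  obtain ⟨A₂, B₂, _, _, _, _, hinj, hA, hB, hf, ⟨e⟩⟩ := Etbase.FPModel.exists_model_flat A B
  have hopen := isOpen_gorFib_of_int A₂ B₂
  let f : Spec (CommRingCat.of B) ⟶ Spec (CommRingCat.of A) :=
    Spec.map (CommRingCat.ofHom (algebraMap A B))
  let f₂ : Spec (CommRingCat.of B₂) ⟶ Spec (CommRingCat.of A₂) :=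
    Spec.map (CommRingCat.ofHom (algebraMap A₂ B₂))
  let g : Spec (CommRingCat.of A) ⟶ Spec (CommRingCat.of A₂) :=
    Spec.map (CommRingCat.ofHom (algebraMap A₂ A))
  have hf₂ : LocallyOfFiniteType f₂ := by
    rw [HasRingHomProperty.Spec_iff (P := @LocallyOfFiniteType)]
    exact RingHom.finiteType_algebraMap.2 inferInstance
  let T := A ⊗[A₂] B₂
  let h : Spec (CommRingCat.of T) ⟶ Spec (CommRingCat.of B₂) :=
    Spec.map (CommRingCat.ofHom
      (Algebra.TensorProduct.includeRight (R := A₂) (A := A) (B := B₂)).toRingHom)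
  let k : Spec (CommRingCat.of T) ⟶ Spec (CommRingCat.of A) :=
    Spec.map (CommRingCat.ofHom (algebraMap A T))
  have hpb : IsPullback h k f₂ g :=
    (isPullback_SpecMap_of_isPushout _ _ _ _ (CommRingCat.isPushout_tensorProduct A₂ A B₂)).flip
  let E : Spec (CommRingCat.of B) ⟶ Spec (CommRingCat.of T) :=
    Spec.map (e.toRingEquiv.toCommRingCatIso).hom
  have hE : E ≫ k = f := by
    change Spec.map _ ≫ Spec.map _ = Spec.map _
    rw [← Spec.map_comp]
    congr 1
    ext a
    exact e.commutes a
  have key : ∀ q : ↥(Spec (CommRingCat.of B)), GorFib f q ↔ GorFib f₂ ((E ≫ h) q) := by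
    intro q
    rw [← hE, gorFib_comp_openImmersion E k q, gorFib_iff_of_isPullback_lft hpb]
    rfl
  have h2 := hopen.preimage (E ≫ h).continuous
  convert h2 using 1
  ext q
  exact key q

variable {X Y : Scheme.{u}}

/-- **The Gorenstein locus of a flat morphism locally of finite presentation is open.** -/
theorem isOpen_gorFib (f : X ⟶ Y) [Flat f] [LocallyOfFinitePresentation f] :
    IsOpen {x : X | GorFib f x} := by
  rw [isOpen_iff_forall_mem_open]
  intro x hx
  obtain ⟨V, hV, hxV, -⟩ := exists_isAffineOpen_mem_and_subset (U := (⊤ : Y.Opens))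
    (x := f x) (by trivial)
  obtain ⟨W, hW, hxW, e⟩ := exists_isAffineOpen_mem_and_subset (U := f ⁻¹ᵁ V) (x := x) hxV
  let _ : Algebra Γ(Y, V) Γ(X, W) := (f.appLE V W e).hom.toAlgebra
  have hfp : Algebra.FinitePresentation Γ(Y, V) Γ(X, W) := f.finitePresentation_appLE hV hW e
  have hfl : Module.Flat Γ(Y, V) Γ(X, W) := f.flat_appLE hV hW e
  have hsq : Spec.map (f.appLE V W e) ≫ hV.fromSpec = hW.fromSpec ≫ f :=
    IsAffineOpen.SpecMap_appLE_fromSpec f hV hW e
  have key : ∀ q : ↥(Spec Γ(X, W)), GorFib (Spec.map (f.appLE V W e)) q ↔ GorFib f (hW.fromSpec q) := by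
    intro q
    have : LocallyOfFiniteType (Spec.map (f.appLE V W e) ≫ hV.fromSpec) := by
      rw [hsq]; infer_instance
    rw [← gorFib_comp_openImmersion hW.fromSpec f q, ← hsq, gorFib_comp_mono]
  have hopen : IsOpen {q : ↥(Spec Γ(X, W)) | GorFib (Spec.map (f.appLE V W e)) q} :=
    isOpen_gorFib_Spec Γ(Y, V) Γ(X, W)
  refine ⟨hW.fromSpec '' {q : ↥(Spec Γ(X, W)) | GorFib (Spec.map (f.appLE V W e)) q}, ?_,
    hW.fromSpec.isOpenEmbedding.isOpenMap _ hopen, ?_⟩
  · rintro _ ⟨q, hq, rfl⟩
    exact (key q).1 hq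
  · refine ⟨hW.primeIdealOf ⟨x, hxW⟩, ?_, hW.fromSpec_primeIdealOf ⟨x, hxW⟩⟩
    refine (key _).2 ?_
    rw [hW.fromSpec_primeIdealOf ⟨x, hxW⟩]
    exact hx

theorem isOpen_isGorensteinAt (f : X ⟶ Y) [Flat f] [LocallyOfFinitePresentation f] :
    IsOpen {x : X | Dual3.IsGorensteinAt f x} := by
  have h : {x : X | Dual3.IsGorensteinAt f x} = {x : X | GorFib f x} := by
    ext x
    exact (isGorensteinAt_iff f x).trans (and_iff_right (Flat.stalkMap f x))
  rw [h]
  exact isOpen_gorFib f

end Groth.Agent.Dual.H321.GorOpen
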